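import Cfsg.Agent.OD.Pre
import Cfsg.Agent.H6.LyC.O0
set_option autoImplicit false
set_option maxRecDepth 100000
set_option Elab.async false
set_option linter.all false
namespace CfH6.LyC
open CfH6 CfH6.D MulAction
theorem iO0 : Rng (chkInvT (fun x => fO (Nat.succ x)) G25B.il 9 19530) 0 19530 := rng_of 0 152 74 19530 (by decide +kernel)
theorem rO0 : Rng (chkRelT (fun x => fO (Nat.succ x)) G25B.rels) 0 2560 := rng_of 0 20 0 2560 (by decide +kernel)
theorem rO1 : Rng (chkRelT (fun x => fO (Nat.succ x)) G25B.rels) 2560 5120 := rng_of 2560 20 0 5120 (by decide +kernel)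
theorem rO2 : Rng (chkRelT (fun x => fO (Nat.succ x)) G25B.rels) 5120 7680 := rng_of 5120 20 0 7680 (by decide +kernel)
theorem rO3 : Rng (chkRelT (fun x => fO (Nat.succ x)) G25B.rels) 7680 10240 := rng_of 7680 20 0 10240 (by decide +kernel)
theorem rO4 : Rng (chkRelT (fun x => fO (Nat.succ x)) G25B.rels) 10240 12800 := rng_of 10240 20 0 12800 (by decide +kernel)
theorem rO5 : Rng (chkRelT (fun x => fO (Nat.succ x)) G25B.rels) 12800 15360 := rng_of 12800 20 0 15360 (by decide +kernel)
theorem rO6 : Rng (chkRelT (fun x => fO (Nat.succ x)) G25B.rels) 15360 17920 := rng_of 15360 20 0 17920 (by decide +kernel)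
theorem rO7 : Rng (chkRelT (fun x => fO (Nat.succ x)) G25B.rels) 17920 19530 := rng_of 17920 12 74 19530 (by decide +kernel)
end CfH6.LyC
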