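import Cfsg.Agent.OD.Pre
import Cfsg.Agent.H6.LyC.O0
set_option autoImplicit false
set_option maxRecDepth 100000
set_option Elab.async false
set_option linter.all false
namespace CfH6.LyC
open CfH6 CfH6.D MulAction
theorem dO0 : Rng (chkId fO) 0 19530 := rng_of 0 152 74 19530 (by decide +kernel)
theorem sO0 : Rng (chkSl fO G25D.sa G25D.sb 152 74) 10 36 := rng_of 10 0 26 36 (by decide +kernel)
theorem sO1 : Rng (chkSl fO G25D.sa G25D.sb 152 74) 36 62 := rng_of 36 0 26 62 (by decide +kernel)
theorem sO2 : Rng (chkSl fO G25D.sa G25D.sb 152 74) 62 64 := rng_of 62 0 2 64 (by decide +kernel)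
end CfH6.LyC
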