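import Cfsg.Agent.OD.Pre
import Cfsg.Agent.H6.LyC.F0
import Cfsg.Agent.H6.LyC.O
set_option autoImplicit false
set_option maxRecDepth 100000
set_option Elab.async false
set_option linter.all false
namespace CfH6.LyC
open CfH6 CfH6.D MulAction
theorem p0 : Rng (P.chk) 0 685 := rng_of 0 5 45 685 (by decide +kernel)
theorem c0 : (QO.ok && Nat.blt 0 QO.m && Nat.beq (P.chkCos QO trO 685 LM ed 0 [nat_lit 677, nat_lit 678, nat_lit 679, nat_lit 26, nat_lit 36] 0 0 1 ct0) 0) = true := by decide +kernel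
theorem c1 : (QO.ok && Nat.blt 0 QO.m && Nat.beq (P.chkCos QO trO 685 LM ed 1 [nat_lit 31, nat_lit 41, nat_lit 37, nat_lit 29, nat_lit 39, nat_lit 35, nat_lit 27] 1 0 6 ct1) 0) = true := by decide +kernel
theorem l1 : (G25D.QD.ok && Nat.beq (chkLevs G25D.QD G25D.trD P.cdK (P.okE 685 1) lev1 []) 0 && Nat.beq (lev1.map Lev.c).prod 300000) = true := by decide +kernel
theorem c2 : (QO.ok && Nat.blt 0 QO.m && Nat.beq (P.chkCos QO trO 685 LM ed 2 [nat_lit 70, nat_lit 50, nat_lit 49, nat_lit 48] 7 0 11 ct2) 0) = true := by decide +kernel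
theorem l2 : (G25D.QD.ok && Nat.beq (chkLevs G25D.QD G25D.trD P.cdK (P.okE 685 2) lev2 []) 0 && Nat.beq (lev2.map Lev.c).prod 6048) = true := by decide +kernel
theorem c3 : (QO.ok && Nat.blt 0 QO.m && Nat.beq (P.chkCos QO trO 685 LM ed 3 [nat_lit 144, nat_lit 128, nat_lit 118, nat_lit 136, nat_lit 220, nat_lit 189] 18 0 18 ct3) 0) = true := by decide +kernel
theorem l3 : (G25D.QD.ok && Nat.beq (chkLevs G25D.QD G25D.trD P.cdK (P.okE 685 3) lev3 []) 0 && Nat.beq (lev3.map Lev.c).prod 2880) = true := by decide +kernel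
theorem c4 : (QO.ok && Nat.blt 0 QO.m && Nat.beq (P.chkCos QO trO 685 LM ed 4 [nat_lit 417, nat_lit 334, nat_lit 335, nat_lit 497] 36 0 30 ct4) 0) = true := by decide +kernel
theorem l4 : (G25D.QD.ok && Nat.beq (chkLevs G25D.QD G25D.trD P.cdK (P.okE 685 4) lev4 []) 0 && Nat.beq (lev4.map Lev.c).prod 1008) = true := by decide +kernel
theorem lB : (G25D.QD.ok && Nat.beq (chkLevs G25D.QD G25D.trD P.cdK (P.okP 685 trO) levB []) 0 && Nat.beq (levB.map Lev.c).prod 300000) = true := by decide +kernel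
end CfH6.LyC
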